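import Mathlib
import Cfsg.Agent.Psl2Cover.Elements

/-!
The centraliser orders occurring in `PSL₂(q)`.
-/

set_option autoImplicit false

namespace CfsgLib.Psl2Cover

open CfsgLib.SL2

variable {F : Type*} [Field F] [Fintype F]

/-- Order of the centraliser in `PSL₂`. -/
noncomputable def centCard (x : Matrix.ProjectiveSpecialLinearGroup (Fin 2) F) : ℕ :=
  Nat.card (Subgroup.centralizer ({x} : Set (Matrix.ProjectiveSpecialLinearGroup (Fin 2) F)))

omit [Fintype F] in
theorem centCard_one :
    centCard (1 : Matrix.ProjectiveSpecialLinearGroup (Fin 2) F) =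
      Nat.card (Matrix.ProjectiveSpecialLinearGroup (Fin 2) F) := by
  rw [centCard, show Subgroup.centralizer
      ({1} : Set (Matrix.ProjectiveSpecialLinearGroup (Fin 2) F)) = ⊤ from
    eq_top_iff.2 fun x _ => Subgroup.mem_centralizer_singleton_iff.2 (by simp), Subgroup.card_top]

theorem card_sq_one : Nat.card {a : F // a * a = 1} = Nat.gcd 2 (Fintype.card F - 1) := by
  obtain ⟨p, hp⟩ := CharP.exists F
  obtain ⟨n, hpp, -⟩ := FiniteField.card F p
  haveI := Fact.mk hpp
  rw [← center_card]
  by_cases h2 : p = 2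
  · subst h2
    rw [CfsgLib.Psl2Unipotent.card_sq_eq_one_of_two, center_eq_bot, Subgroup.card_bot]
  · rw [CfsgLib.Psl2Unipotent.card_sq_eq_one_of_ne h2,
      card_center_odd (Ring.two_ne_zero (by rw [ringChar.eq F p]; exact h2))]

/-- Unipotent classes. -/
theorem centCard_u {r : F} (hr : r ≠ 0) : centCard (proj (u r)) = Fintype.card F := by
  have h := card_centralizer_proj_of_tr_ne_zero (g := u r) (fun h2 => by rwa [tr_u])
  rw [u_eq_upperU, CfsgLib.Psl2Unipotent.card_centralizer_upperU hr, card_sq_one] at h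
  rw [centCard, u_eq_upperU]
  exact (Nat.eq_of_mul_eq_mul_left (Nat.gcd_pos_of_pos_left _ two_pos) h).symm

/-- Centraliser of an element with non-zero trace. -/
theorem centCard_of_tr_ne_zero {g : Matrix.SpecialLinearGroup (Fin 2) F}
    (h0 : (2 : F) ≠ 0 → tr g ≠ 0) :
    centCard (proj g) =
      Nat.card (Subgroup.centralizer ({g} : Set (Matrix.SpecialLinearGroup (Fin 2) F))) /
        Nat.gcd 2 (Fintype.card F - 1) := by
  rw [card_centralizer_proj_of_tr_ne_zero h0,
    Nat.mul_div_cancel_left _ (Nat.gcd_pos_of_pos_left _ two_pos)]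
  rfl

omit [Fintype F] in
theorem pow_four_of_tr_eq_zero {g : Matrix.SpecialLinearGroup (Fin 2) F} (h : tr g = 0) :
    g ^ 4 = 1 := by
  rw [show 4 = 2 * 2 from rfl, pow_mul, pow_two g, mul_self_of_tr_eq_zero h, neg_one_sq]

/-- A cyclic centraliser of order at least five gives a regular element of non-zero trace. -/
theorem exists_centCard_torus {g : Matrix.SpecialLinearGroup (Fin 2) F}
    (hg : g ∉ Subgroup.center (Matrix.SpecialLinearGroup (Fin 2) F))
    (hc : IsCyclic (Subgroup.centralizer ({g} : Set (Matrix.SpecialLinearGroup (Fin 2) F))))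
    (h5 : 4 < Nat.card
      (Subgroup.centralizer ({g} : Set (Matrix.SpecialLinearGroup (Fin 2) F))) ∨ (2 : F) = 0) :
    ∃ x : Matrix.ProjectiveSpecialLinearGroup (Fin 2) F, centCard x =
      Nat.card (Subgroup.centralizer ({g} : Set (Matrix.SpecialLinearGroup (Fin 2) F))) /
        Nat.gcd 2 (Fintype.card F - 1) := by
  obtain ⟨⟨a, ha⟩, hgen⟩ := hc.exists_generator
  have hord : orderOf a =
      Nat.card (Subgroup.centralizer ({g} : Set (Matrix.SpecialLinearGroup (Fin 2) F))) := by
    rw [← orderOf_eq_card_of_forall_mem_zpowers hgen, Subgroup.orderOf_mk]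
  have hac : a ∉ Subgroup.center (Matrix.SpecialLinearGroup (Fin 2) F) := by
    intro h
    apply hg
    obtain ⟨k, hk⟩ := Subgroup.mem_zpowers_iff.1
      (hgen ⟨g, Subgroup.mem_centralizer_singleton_iff.2 rfl⟩)
    have : a ^ k = g := congrArg Subtype.val hk
    rw [← this]
    exact Subgroup.zpow_mem _ h k
  have heq := centralizer_eq_of_mem hg ha hac
  refine ⟨proj a, ?_⟩
  rw [centCard_of_tr_ne_zero (fun h2 h0 => ?_), heq]
  rcases h5 with h5 | h5
  · rw [← hord] at h5
    exact absurd (Nat.le_of_dvd (by norm_num) (orderOf_dvd_of_pow_eq_one (pow_four_of_tr_eq_zero h0)))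
      (by omega)
  · exact h2 h5

theorem exists_centCard_add_one (h : 4 ≤ Fintype.card F) :
    ∃ x : Matrix.ProjectiveSpecialLinearGroup (Fin 2) F,
      centCard x = (Fintype.card F + 1) / Nat.gcd 2 (Fintype.card F - 1) := by
  obtain ⟨g, hs, hc, hcard⟩ := exists_card_centralizer_eq_add_one (F := F)
  rw [← hcard]
  exact exists_centCard_torus (not_mem_center_of_tr_sq_ne (sq_ne_four_of_not_isSplitTrace hs)) hc
    (.inl (by omega))

theorem exists_centCard_sub_one (h : 4 ≤ Fintype.card F)
    (h6 : 6 ≤ Fintype.card F ∨ (2 : F) = 0) :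
    ∃ x : Matrix.ProjectiveSpecialLinearGroup (Fin 2) F,
      centCard x = (Fintype.card F - 1) / Nat.gcd 2 (Fintype.card F - 1) := by
  classical
  obtain ⟨a, ha⟩ : ∃ a : Fˣ, a * a ≠ 1 := by
    obtain ⟨c, hc⟩ := IsCyclic.exists_generator (α := Fˣ)
    refine ⟨c, fun h1 => ?_⟩
    have h2 := orderOf_eq_card_of_forall_mem_zpowers hc
    rw [Nat.card_units, Nat.card_eq_fintype_card] at h2
    have := Nat.le_of_dvd two_pos (orderOf_dvd_of_pow_eq_one (show c ^ 2 = 1 by rwa [sq]))
    omega
  have hcent := centralizer_d ha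
  have hnc : d a ∉ Subgroup.center (Matrix.SpecialLinearGroup (Fin 2) F) := by
    intro hz
    apply ha
    rcases mem_center_iff'.1 hz with e | e
    · have : a = 1 := d_injective (by rw [e, map_one])
      simp [this]
    · have : a = -1 := d_injective (by rw [e, d_neg_one])
      simp [this]
  have hcyc : IsCyclic (Subgroup.centralizer
      ({d a} : Set (Matrix.SpecialLinearGroup (Fin 2) F))) := by
    rw [hcent]
    exact isCyclic_of_surjective _ (MonoidHom.rangeRestrict_surjective (d (F := F)))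
  have hcd : Nat.card (Subgroup.centralizer
      ({d a} : Set (Matrix.SpecialLinearGroup (Fin 2) F))) = Fintype.card F - 1 := by
    rw [hcent, T_nat_card, Nat.card_eq_fintype_card]
  obtain ⟨x, hx⟩ := exists_centCard_torus hnc hcyc (h6.imp (fun _ => by omega) id)
  exact ⟨x, by rw [hx, hcd]⟩

/-- The possible centraliser orders. -/
theorem centCard_cases (x : Matrix.ProjectiveSpecialLinearGroup (Fin 2) F) :
    x = 1 ∨ centCard x = Fintype.card F ∨
      centCard x = (Fintype.card F - 1) / Nat.gcd 2 (Fintype.card F - 1) ∨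
      centCard x = (Fintype.card F + 1) / Nat.gcd 2 (Fintype.card F - 1) ∨
      ((2 : F) ≠ 0 ∧
        ((IsSplitTrace (0 : F) ∧ centCard x = Fintype.card F - 1) ∨
          (¬ IsSplitTrace (0 : F) ∧ centCard x = Fintype.card F + 1))) := by
  obtain ⟨g, rfl⟩ := proj_surjective x
  by_cases h1 : proj g = 1
  · exact .inl h1
  refine .inr ?_
  by_cases ht : tr g ^ 2 = 4
  · left
    have h' : (tr g - 2) * (tr g + 2) = 0 := by linear_combination ht
    have key : ∀ g : Matrix.SpecialLinearGroup (Fin 2) F, tr g = 2 → proj g ≠ 1 →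
        centCard (proj g) = Fintype.card F := by
      intro g ht h1
      obtain ⟨r, hr, hc⟩ := exists_isConj_u (fun e => h1 (by rw [e, map_one])) ht
      rw [← centCard_u hr, centCard_of_tr_ne_zero (fun h2 => by rwa [ht]),
        centCard_of_tr_ne_zero (fun h2 => by rwa [tr_u]), card_centralizer_eq_of_isConj hc]
    rcases mul_eq_zero.1 h' with h | h
    · exact key g (sub_eq_zero.1 h) h1
    · rw [← proj_neg]
      exact key (-g) (by rw [tr_neg]; linear_combination -h) (by rwa [proj_neg])
  · refine .inr ?_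
    by_cases h0 : (2 : F) ≠ 0 → tr g ≠ 0
    · rw [centCard_of_tr_ne_zero h0]
      by_cases hs : IsSplitTrace (tr g)
      · exact .inl (by rw [card_centralizer_split ht hs])
      · exact .inr (.inl (by rw [card_centralizer_nonsplit hs]))
    · push Not at h0
      refine .inr (.inr ⟨h0.1, ?_⟩)
      rw [centCard, ← card_centralizer_proj_of_tr_eq_zero h0.1 h0.2]
      by_cases hs : IsSplitTrace (tr g)
      · exact .inl ⟨h0.2 ▸ hs, card_centralizer_split ht hs⟩
      · exact .inr ⟨h0.2 ▸ hs, card_centralizer_nonsplit hs⟩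

/-- Involution classes in odd characteristic. -/
theorem exists_centCard_involution (h2 : (2 : F) ≠ 0) :
    ∃ x : Matrix.ProjectiveSpecialLinearGroup (Fin 2) F,
      (IsSplitTrace (0 : F) ∧ centCard x = Fintype.card F - 1) ∨
      (¬ IsSplitTrace (0 : F) ∧ centCard x = Fintype.card F + 1) := by
  refine ⟨proj (comp 0), ?_⟩
  have ht : tr (comp (0 : F)) = 0 := tr_comp 0
  have hne : tr (comp (0 : F)) ^ 2 ≠ 4 := by
    rw [ht]
    intro h
    have : (2 : F) * 2 = 0 := by linear_combination -h
    exact h2 (by simpa using this)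
  rw [centCard, ← card_centralizer_proj_of_tr_eq_zero h2 ht]
  by_cases hs : IsSplitTrace (0 : F)
  · exact .inl ⟨hs, card_centralizer_split hne (ht.symm ▸ hs)⟩
  · exact .inr ⟨hs, card_centralizer_nonsplit (ht.symm ▸ hs)⟩

theorem isSplitTrace_zero_iff : IsSplitTrace (0 : F) ↔ Fintype.card F % 4 ≠ 3 := by
  rw [isSplitTrace_iff_root, ← FiniteField.isSquare_neg_one_iff]
  constructor
  · rintro ⟨a, ha⟩
    exact ⟨a, by linear_combination -ha⟩
  · rintro ⟨a, ha⟩
    exact ⟨a, by linear_combination -ha⟩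

end CfsgLib.Psl2Cover
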