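import Mathlib
import Cfsg.Agent.SL2.Elements

/-!
Products of two conjugates of a semisimple element of `SL₂` (Macbeath's trick).
-/

set_option autoImplicit false

namespace CfsgLib.Psl2Cover

open CfsgLib.SL2

variable {F : Type*} [Field F]

/-- Every element of non-central trace is a product of two conjugates of `A`. -/
theorem exists_conj_mul_eq_of_tr_sq_ne [Finite F] {A G : Matrix.SpecialLinearGroup (Fin 2) F}
    (ht : tr A ^ 2 ≠ 4) (hs : tr G ^ 2 ≠ 4) :
    ∃ u v : Matrix.SpecialLinearGroup (Fin 2) F, G = (u * A * u⁻¹) * (v * A * v⁻¹) := by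
  set t := tr A with htdef
  set s := tr G with hsdef
  have hne : 4 - t ^ 2 ≠ 0 := sub_ne_zero.2 (Ne.symm ht)
  set a0 := (2 * t - t * (t ^ 2 - s)) / (4 - t ^ 2) with ha0
  set c0 := (2 * (t ^ 2 - s) - t ^ 2) / (4 - t ^ 2) with hc0
  have e1 : 2 * a0 + t * c0 = t := by rw [ha0, hc0]; field_simp; ring
  have e2 : t * a0 + 2 * c0 = t ^ 2 - s := by rw [ha0, hc0]; field_simp; ring
  obtain ⟨x, y, hxy⟩ := exists_form_eq ht
    (-1 + t * a0 + (t ^ 2 - s) * c0 - (a0 ^ 2 + t * a0 * c0 + c0 ^ 2))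
  set a := a0 + x with hadef
  set c := c0 + y with hcdef
  have hdet : a * (t - a) - (s + c - t ^ 2 + t * a) * c = 1 := by
    rw [hadef, hcdef]
    linear_combination -hxy - x * e1 - y * e2
  set B := mk4 a (s + c - t ^ 2 + t * a) c (t - a) hdet with hB
  have htB : tr B = t := by simp [hB, tr]
  have htC : tr (comp t) = t := tr_comp t
  have htr : tr (comp t * B) = s := by
    simp [hB, comp, tr, Matrix.mul_apply, Fin.sum_univ_two]
    ring
  obtain ⟨g, hg⟩ := isConj_iff.1 (isConj_of_tr_eq (g := comp t * B) (h := G) (by rw [htr]; exact hs)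
    (by rw [htr]))
  obtain ⟨u, hu⟩ := isConj_iff.1 (isConj_of_tr_eq (g := A) (h := comp t) ht (by rw [htC]))
  obtain ⟨v, hv⟩ := isConj_iff.1 (isConj_of_tr_eq (g := A) (h := B) ht (by rw [htB]))
  refine ⟨g * u, g * v, ?_⟩
  rw [← hg, ← hu, ← hv]
  group

/-- Odd characteristic: `-u r` is a product of two conjugates of `A`. -/
theorem exists_conj_mul_eq_neg_u [Finite F] {A : Matrix.SpecialLinearGroup (Fin 2) F}
    (ht : tr A ^ 2 ≠ 4) (ht0 : tr A ≠ 0) (h2 : (2 : F) ≠ 0) {r : F} (hr : r ≠ 0) :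
    ∃ a b : Matrix.SpecialLinearGroup (Fin 2) F, -(u r) = (a * A * a⁻¹) * (b * A * b⁻¹) := by
  set t := tr A with htdef
  set c := 2 * t / r with hc
  have hc0 : c ≠ 0 := div_ne_zero (mul_ne_zero h2 ht0) hr
  set A1 := mk4 0 (-c⁻¹) c t (by field_simp; ring) with hA1
  set A2 := A1⁻¹ * -(u r) with hA2
  have h1 : tr A1 = t := by simp [hA1, tr]
  have h2' : tr A2 = t := by
    have hcr : c * r = 2 * t := by rw [hc]; field_simp
    simp [hA2, hA1, tr, inv_apply, Matrix.mul_apply, Fin.sum_univ_two,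
      Matrix.SpecialLinearGroup.coe_inv, Matrix.adjugate_fin_two]
    linear_combination hcr
  obtain ⟨x, hx⟩ := isConj_iff.1 (isConj_of_tr_eq (g := A) (h := A1) ht (by rw [h1]))
  obtain ⟨y, hy⟩ := isConj_iff.1 (isConj_of_tr_eq (g := A) (h := A2) ht (by rw [h2']))
  exact ⟨x, y, by rw [hx, hy, hA2, mul_inv_cancel_left]⟩

/-- For split trace, `u r` is a product of two conjugates of `A`. -/
theorem exists_conj_mul_eq_u [Finite F] {A : Matrix.SpecialLinearGroup (Fin 2) F}
    (ht : tr A ^ 2 ≠ 4) (hs : IsSplitTrace (tr A)) (r : F) :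
    ∃ a b : Matrix.SpecialLinearGroup (Fin 2) F, u r = (a * A * a⁻¹) * (b * A * b⁻¹) := by
  obtain ⟨l, hl⟩ := hs
  set A2 := (d l)⁻¹ * u r with hA2
  have h1 : tr (d l) = tr A := by rw [tr_d, hl]
  have h2' : tr A2 = tr A := by
    rw [← hl]
    simp [hA2, tr, inv_apply, Matrix.mul_apply, Fin.sum_univ_two,
      Matrix.SpecialLinearGroup.coe_inv, Matrix.adjugate_fin_two]
    ring
  obtain ⟨x, hx⟩ := isConj_iff.1 (isConj_of_tr_eq (g := A) (h := d l) ht (by rw [h1]))
  obtain ⟨y, hy⟩ := isConj_iff.1 (isConj_of_tr_eq (g := A) (h := A2) ht (by rw [h2']))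
  exact ⟨x, y, by rw [hx, hy, hA2, mul_inv_cancel_left]⟩

/-- Transport a factorisation along conjugation. -/
theorem conj_factor {G : Type*} [Group G] {x g g' u v : G} (h : g = (u * x * u⁻¹) * (v * x * v⁻¹))
    (c : G) (hc : c * g * c⁻¹ = g') :
    g' = ((c * u) * x * (c * u)⁻¹) * ((c * v) * x * (c * v)⁻¹) := by
  rw [← hc, h]
  group

end CfsgLib.Psl2Cover
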